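import Mathlib
import Cfsg.Agent.Frob.Complement
import Cfsg.Agent.Frob.Aut
import Cfsg.Agent.JX.Frob
import Cfsg.Agent.BG.L10_2
import Cfsg.Agent.BG.NilpCop
import Cfsg.Agent.Hall.Hall

/-! Solvable groups with disconnected prime graph are Frobenius or 2-Frobenius groups. -/

set_option autoImplicit false

namespace Cfsg.Agent.GKS

open Cfsg
open scoped commutatorElement

universe u

/-- no element of order `a * b` with `a ∈ A`, `b ∉ A` primes -/
def Disc (A : Set ℕ) (G : Type*) [Group G] : Prop :=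
  ∀ a ∈ A, ∀ b ∉ A, a.Prime → b.Prime → ¬ ∃ g : G, orderOf g = a * b

theorem Disc.symm {A : Set ℕ} {G : Type*} [Group G] (h : Disc A G) : Disc Aᶜ G := by
  intro a ha b hb pa pb ⟨g, hg⟩
  exact h b (not_not.1 hb) a ha pb pa ⟨g, by rw [hg, mul_comm]⟩

theorem Disc.quot {A : Set ℕ} {G : Type*} [Group G] [Finite G] (h : Disc A G) (N : Subgroup G) [N.Normal] :
    Disc A (G ⧸ N) := by
  rintro a ha b hb pa pb ⟨g, hg⟩
  obtain ⟨g, rfl⟩ := QuotientGroup.mk_surjective g
  have h1 : a * b ∣ orderOf g := by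
    rw [← hg]; exact orderOf_map_dvd (QuotientGroup.mk' N) g
  obtain ⟨k, hk⟩ := h1
  have hpos : 0 < orderOf g := orderOf_pos g
  have hk0 : k ≠ 0 := by rintro rfl; rw [mul_zero] at hk; omega
  refine h a ha b hb pa pb ⟨g ^ k, ?_⟩
  rw [orderOf_pow_of_dvd hk0 (Dvd.intro_left _ hk.symm), hk]
  exact Nat.mul_div_cancel _ (Nat.pos_of_ne_zero hk0)

theorem Disc.sub {A : Set ℕ} {G : Type*} [Group G] (h : Disc A G) (K : Subgroup G) : Disc A K := by
  rintro a ha b hb pa pb ⟨g, hg⟩
  exact h a ha b hb pa pb ⟨g, by rw [Subgroup.orderOf_coe, hg]⟩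

theorem Disc.not_comm {A : Set ℕ} {G : Type*} [Group G] [Finite G] (h : Disc A G) {x y : G} (hx : x ≠ 1) (hy : y ≠ 1)
    (hxy : Commute x y) (hxA : ∀ p : ℕ, p.Prime → p ∣ orderOf x → p ∈ A)
    (hyA : ∀ p : ℕ, p.Prime → p ∣ orderOf y → p ∉ A) : False := by
  obtain ⟨a, pa, ha⟩ := Nat.exists_prime_and_dvd (n := orderOf x) (by rwa [Ne, orderOf_eq_one_iff])
  obtain ⟨b, pb, hb⟩ := Nat.exists_prime_and_dvd (n := orderOf y) (by rwa [Ne, orderOf_eq_one_iff])
  have hne : a ≠ b := fun e => hyA b pb hb (e ▸ hxA a pa ha)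
  have h1 : orderOf (x ^ (orderOf x / a)) = a := orderOf_pow_orderOf_div (orderOf_pos x).ne' ha
  have h2 : orderOf (y ^ (orderOf y / b)) = b := orderOf_pow_orderOf_div (orderOf_pos y).ne' hb
  have h3 : Commute (x ^ (orderOf x / a)) (y ^ (orderOf y / b)) := hxy.pow_pow _ _
  refine h a (hxA a pa ha) b (hyA b pb hb) pa pb ⟨x ^ (orderOf x / a) * y ^ (orderOf y / b), ?_⟩
  rw [h3.orderOf_mul_eq_mul_orderOf_of_coprime (by rw [h1, h2]; exact (Nat.coprime_primes pa pb).2 hne), h1, h2]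

variable {G : Type u} [Group G] [Finite G]

theorem frob_of {A : Set ℕ} (hD : Disc A G) (N : Subgroup G) [N.Normal]
    (hNA : ∀ p : ℕ, p.Prime → p ∣ Nat.card N → p ∈ A) (hidx : ∀ p : ℕ, p.Prime → p ∣ N.index → p ∉ A)
    (h1 : N ≠ ⊥) (h2 : N ≠ ⊤) :
    ∃ C : Subgroup G, Subgroup.IsComplement' N C ∧ IsFrobeniusComplement C ∧ frobeniusKernel C = (N : Set G) ∧
      Frob.HasFPFModule C := by
  have hcop : (Nat.card N).Coprime N.index := by
    apply Nat.coprime_of_dvd
    intro p hp hd hd'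
    exact hidx p hp hd' (hNA p hp hd)
  obtain ⟨C, hC⟩ := Subgroup.exists_right_complement'_of_coprime hcop
  have hcard : Nat.card C = N.index := by
    have := hC.symm.index_eq_card
    rw [← this]
  have hC1 : C ≠ ⊥ := by
    rintro rfl
    rw [Subgroup.card_bot] at hcard
    exact h2 (Subgroup.index_eq_one.1 hcard.symm)
  have hfpf : ∀ h ∈ C, h ≠ 1 → N ⊓ Subgroup.centralizer {h} = ⊥ := by
    intro h hh hh1
    rw [eq_bot_iff]
    rintro x ⟨hx, hxc⟩
    rw [Subgroup.mem_bot]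
    by_contra hx1
    refine hD.not_comm hx1 hh1 ?_ ?_ ?_
    · exact (Subgroup.mem_centralizer_singleton_iff.1 hxc)
    · intro p hp hd
      exact hNA p hp (hd.trans (Subgroup.orderOf_dvd_natCard N hx))
    · intro p hp hd
      exact hidx p hp (hd.trans ((Subgroup.orderOf_dvd_natCard C hh).trans hcard.dvd))
  have hF := (Frob.isFrobeniusComplement_iff_fpf hC h1 hC1).2 hfpf
  exact ⟨C, hC, hF, (Frob.coe_eq_frobeniusKernel hF hC).symm, Frob.hasFPFModule_of_fpf hC h1 hfpf⟩

/-- a nontrivial solvable group has nontrivial `O_A` or `O_{A'}` -/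
theorem exists_core [Group.IsSolvable G] [Nontrivial G] (A : Set ℕ) : piCore A G ≠ ⊥ ∨ piCore Aᶜ G ≠ ⊥ := by
  obtain ⟨p, N, hp, hNn, hN1, -, hNp, -⟩ := Hall.exists_normal_elementary (G := G)
  haveI := Fact.mk hp
  obtain ⟨n, hn⟩ := IsPGroup.iff_card.1 hNp
  have key : ∀ q : ℕ, q.Prime → q ∣ Nat.card N → q = p := by
    intro q hq hd
    rw [hn] at hd
    exact (Nat.prime_dvd_prime_iff_eq hq hp).1 (hq.dvd_of_dvd_pow hd)
  by_cases hpA : p ∈ A
  · left
    intro h
    apply hN1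
    rw [eq_bot_iff, ← h]
    exact H62.le_piCore hNn (fun q hq hd => by rw [key q hq hd]; exact hpA)
  · right
    intro h
    apply hN1
    rw [eq_bot_iff, ← h]
    exact H62.le_piCore hNn (fun q hq hd => by rw [key q hq hd]; exact hpA)

theorem fitting_le [Group.IsSolvable G] {A : Set ℕ} (hA : piCore A G = ⊥) : fittingSubgroup G ≤ piCore Aᶜ G := by
  have hF : Group.IsNilpotent (fittingSubgroup G) := Solv.fitting_isNilpotent
  set F := fittingSubgroup G with hFd
  refine H62.le_piCore inferInstance ?_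
  intro p hp hd hpA
  haveI := Fact.mk hp
  obtain ⟨P⟩ : Nonempty (Sylow p F) := inferInstance
  have hPn : (P : Subgroup F).Normal := inferInstance
  have hPc : (P : Subgroup F).Characteristic := P.characteristic_of_normal hPn
  have hPG : ((P : Subgroup F).map F.subtype).Normal := by infer_instance
  obtain ⟨n, hn⟩ := IsPGroup.iff_card.1 P.isPGroup'
  have h1 : (P : Subgroup F).map F.subtype ≤ ⊥ := by
    rw [← hA]
    refine H62.le_piCore hPG ?_
    intro q hq hd'
    rw [Subgroup.card_map_of_injective F.subtype_injective, hn] at hd'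
    rwa [(Nat.prime_dvd_prime_iff_eq hq hp).1 (hq.dvd_of_dvd_pow hd')]
  have h2 : (P : Subgroup F) = ⊥ := by
    rw [← Subgroup.map_eq_bot_iff_of_injective _ F.subtype_injective]
    exact le_bot_iff.1 h1
  exact P.ne_bot_of_dvd_card hd h2

theorem mulAut_comm {K : Type*} [Group K] [Finite K] [IsCyclic K] (f g : MulAut K) : f * g = g * f := by
  have e := IsCyclic.mulAutMulEquiv K
  apply e.injective
  rw [map_mul, map_mul, mul_comm]

theorem main [Group.IsSolvable G] {A : Set ℕ} (hD : Disc A G) (hN0 : piCore A G ≠ ⊥)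
    (hb : ∃ b ∉ A, b.Prime ∧ b ∣ Nat.card G) :
    (∃ C : Subgroup G, Cfsg.IsFrobeniusComplement C) ∨
    (∃ (H K : Subgroup G) (_ : H.Normal), K.Normal ∧ H < K ∧
      (∃ C : Subgroup ↥K, Cfsg.IsFrobeniusComplement C ∧ Cfsg.frobeniusKernel C = (H.subgroupOf K : Set ↥K)) ∧
      (∃ C : Subgroup (G ⧸ H), Cfsg.IsFrobeniusComplement C ∧ Cfsg.frobeniusKernel C = (K.map (QuotientGroup.mk' H) : Set (G ⧸ H)))) := by
  classical
  set N := piCore A G with hN
  have hNA : ∀ p : ℕ, p.Prime → p ∣ Nat.card N → p ∈ A := fun p hp hd => H62.prime_mem_of_dvd_card_piCore A p hp hd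
  have hL1 : piCore A (G ⧸ N) = ⊥ := BG.piCore_quotient_eq_bot A
  have hDL : Disc A (G ⧸ N) := hD.quot N
  obtain ⟨b, hbA, pb, hbG⟩ := hb
  have hbi : b ∣ N.index := by
    rw [← N.card_mul_index] at hbG
    exact (pb.dvd_mul.1 hbG).resolve_left (fun h => hbA (hNA b pb h))
  have hNtop : N ≠ ⊤ := by
    rintro h
    rw [h, Subgroup.index_top] at hbi
    exact pb.one_lt.ne' (Nat.dvd_one.1 hbi)
  haveI hLnt : Nontrivial (G ⧸ N) := by
    rw [← Finite.one_lt_card_iff_nontrivial]
    change 1 < N.index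
    rcases Nat.lt_or_ge 1 N.index with h | h
    · exact h
    · exfalso
      have : 0 < N.index := Nat.pos_of_ne_zero Subgroup.index_ne_zero_of_finite
      exact hNtop (Subgroup.index_eq_one.1 (by omega))
  have hK0 : piCore Aᶜ (G ⧸ N) ≠ ⊥ := (exists_core (G := G ⧸ N) A).resolve_left (fun h => h hL1)
  set Kb := piCore Aᶜ (G ⧸ N) with hKb
  have hKA : ∀ p : ℕ, p.Prime → p ∣ Nat.card Kb → p ∉ A := fun p hp hd =>
    H62.prime_mem_of_dvd_card_piCore Aᶜ p hp hd
  by_cases hKt : Kb = ⊤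
  · left
    obtain ⟨C, -, hC, -⟩ := frob_of hD N hNA (fun p hp hd => hKA p hp (by rw [hKt, Subgroup.card_top]; exact hd)) hN0 hNtop
    exact ⟨C, hC⟩
  right
  set K := Kb.comap (QuotientGroup.mk' N) with hK
  have hNK : N ≤ K := by
    intro x hx
    rw [hK, Subgroup.mem_comap, QuotientGroup.mk'_apply, (QuotientGroup.eq_one_iff x).2 hx]
    exact one_mem _
  have hmapK : K.map (QuotientGroup.mk' N) = Kb :=
    Subgroup.map_comap_eq_self_of_surjective (QuotientGroup.mk'_surjective N) Kb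
  have hcardK : Nat.card K = Nat.card N * Nat.card Kb := BG.card_comap_mk' N Kb
  have hcN : Nat.card (N.subgroupOf K) = Nat.card N := BG.card_subgroupOf_of_le hNK
  have hiN : (N.subgroupOf K).index = Nat.card Kb := by
    have h1 := (N.subgroupOf K).card_mul_index
    rw [hcN, hcardK] at h1
    exact Nat.eq_of_mul_eq_mul_left Nat.card_pos h1
  have hKb1 : Nat.card Kb ≠ 1 := fun h => hK0 (Subgroup.card_eq_one.1 h)
  haveI : (N.subgroupOf K).Normal := inferInstance
  obtain ⟨B, hB, hBF, hBk, hBm⟩ := frob_of (hD.sub K) (N.subgroupOf K)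
    (fun p hp hd => hNA p hp (by rwa [hcN] at hd)) (fun p hp hd => hKA p hp (by rwa [hiN] at hd))
    (by
      intro h
      rw [h, Subgroup.card_bot] at hcN
      exact hN0 (Subgroup.card_eq_one.1 hcN.symm))
    (by
      intro h
      rw [h, Subgroup.index_top] at hiN
      exact hKb1 hiN.symm)
  -- the fixed point free module for `Kb`
  have hcB : Nat.card B = Nat.card Kb := by
    rw [← hiN]; exact hB.symm.index_eq_card.symm
  let f : B →* Kb := (((QuotientGroup.mk' N).comp K.subtype).comp B.subtype).codRestrict Kb (by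
    intro x
    exact (x : K).2)
  have hf : Function.Injective f := by
    rw [injective_iff_map_eq_one]
    intro x hx
    have h1 : QuotientGroup.mk' N ((x : K) : G) = 1 := congrArg Subtype.val hx
    rw [QuotientGroup.mk'_apply, QuotientGroup.eq_one_iff] at h1
    have h2 : (x : K) ∈ N.subgroupOf K := h1
    have h3 := Subgroup.disjoint_def.1 hB.disjoint h2 x.2
    exact Subtype.ext h3
  have hfb : Function.Bijective f := (Nat.bijective_iff_injective_and_card f).2 ⟨hf, hcB⟩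
  have hKm : Frob.HasFPFModule Kb :=
    hBm.of_injective (MulEquiv.ofBijective f hfb).symm.toMonoidHom (MulEquiv.injective _)
  -- the rest of the quotient
  have hQ1 : piCore Aᶜ ((G ⧸ N) ⧸ Kb) = ⊥ := BG.piCore_quotient_eq_bot Aᶜ
  have hKi : ∃ a ∈ A, a.Prime ∧ a ∣ Kb.index := by
    by_contra hcon
    push Not at hcon
    apply hKt
    rw [← Subgroup.index_eq_one]
    have h1 : (⊤ : Subgroup ((G ⧸ N) ⧸ Kb)) ≤ piCore Aᶜ ((G ⧸ N) ⧸ Kb) := by
      refine H62.le_piCore inferInstance ?_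
      intro p hp hd hpA
      rw [Subgroup.card_top] at hd
      exact hcon p hpA hp hd
    rw [hQ1, le_bot_iff] at h1
    have h2 := Subgroup.card_top (G := (G ⧸ N) ⧸ Kb)
    rw [h1, Subgroup.card_bot] at h2
    exact h2.symm
  obtain ⟨a, haA, pa, ha⟩ := hKi
  haveI := Fact.mk pa
  obtain ⟨d, hd⟩ := exists_prime_orderOf_dvd_card' a (ha.trans (Subgroup.index_dvd_card Kb))
  have hd1 : d ≠ 1 := by rintro rfl; rw [orderOf_one] at hd; exact pa.one_lt.ne hd
  have hfp : ∀ g : Kb, MulAut.conjNormal d g = g → g = 1 := by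
    intro g hg
    by_contra hg1
    have h1 : d * (g : G ⧸ N) * d⁻¹ = g := by
      have := congrArg Subtype.val hg
      rwa [MulAut.conjNormal_apply] at this
    refine hDL.not_comm (x := d) (y := (g : G ⧸ N)) hd1 (fun h => hg1 (Subtype.ext h)) ?_ ?_ ?_
    · exact mul_inv_eq_iff_eq_mul.1 h1
    · intro p hp hd'
      rw [hd] at hd'
      rwa [(Nat.prime_dvd_prime_iff_eq hp pa).1 hd']
    · intro p hp hd'
      exact hKA p hp (hd'.trans (Subgroup.orderOf_dvd_natCard Kb g.2))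
  have hfa : ∀ g : Kb, ((MulAut.conjNormal d : MulAut Kb) ^ a) g = g := by
    intro g
    rw [← map_pow, ← hd, pow_orderOf_eq_one, map_one]
    rfl
  have hKnil : Group.IsNilpotent Kb := Frob.isNilpotent_of_isSolvable_of_fpf_aut pa _ Kb rfl inferInstance _ hfa hfp
  have hKodd : ¬ 2 ∣ Nat.card Kb := by
    intro h2
    obtain ⟨s, hs⟩ := exists_prime_orderOf_dvd_card' 2 h2
    have hs1 : s ≠ 1 := by rintro rfl; rw [orderOf_one] at hs; omega
    have hss : s * s = 1 := by rw [← pow_two, ← hs, pow_orderOf_eq_one]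
    apply hs1
    apply hfp
    apply hKm.eq_of_involution _ _ hss hs1
    · rw [← map_mul, hss, map_one]
    · intro h
      exact hs1 ((MulAut.conjNormal d : MulAut Kb).injective (by rw [h, map_one]))
  haveI : IsZGroup Kb := JX.isZGroup_of_odd hKm hKodd
  haveI hKc : IsCyclic Kb := by infer_instance
  -- `C(Kb) ≤ Kb` and `(G/N)' ≤ Kb`
  have hCK : Subgroup.centralizer (Kb : Set (G ⧸ N)) ≤ Kb := by
    refine (Subgroup.centralizer_le (SetLike.coe_subset_coe.2 (fitting_le hL1))).trans ?_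
    exact Solv.centralizer_fitting_le.trans (fitting_le hL1)
  have hcomm : commutator (G ⧸ N) ≤ Kb := by
    refine le_trans ?_ hCK
    rw [commutator_def, Subgroup.commutator_le]
    intro x _ y _
    rw [Subgroup.mem_centralizer_iff]
    intro k hk
    have h1 : (MulAut.conjNormal ⁅x, y⁆ : MulAut Kb) = 1 := by
      rw [map_commutatorElement, commutatorElement_eq_one_iff_mul_comm]
      exact mulAut_comm _ _
    have h2 : (MulAut.conjNormal ⁅x, y⁆ : MulAut Kb) ⟨k, hk⟩ = ⟨k, hk⟩ := by rw [h1]; rfl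
    have h3 := congrArg Subtype.val h2
    rw [MulAut.conjNormal_apply] at h3
    exact (mul_inv_eq_iff_eq_mul.1 h3).symm
  have hidx : ∀ p : ℕ, p.Prime → p ∣ Kb.index → p ∉ Aᶜ := by
    intro p hp hd hpA
    haveI := Fact.mk hp
    have hQc : ∀ x y : (G ⧸ N) ⧸ Kb, x * y = y * x := by
      intro x y
      exact ((Subgroup.Normal.quotient_commutative_iff_commutator_le (N := Kb)).2 hcomm).is_comm.comm x y
    obtain ⟨P⟩ : Nonempty (Sylow p ((G ⧸ N) ⧸ Kb)) := inferInstance
    have hPn : (P : Subgroup ((G ⧸ N) ⧸ Kb)).Normal := by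
      constructor
      intro x hx g
      rw [hQc g x, mul_inv_cancel_right]
      exact hx
    obtain ⟨n, hn⟩ := IsPGroup.iff_card.1 P.isPGroup'
    have h1 : (P : Subgroup ((G ⧸ N) ⧸ Kb)) ≤ ⊥ := by
      rw [← hQ1]
      refine H62.le_piCore hPn ?_
      intro q hq hd'
      rw [hn] at hd'
      rwa [(Nat.prime_dvd_prime_iff_eq hq hp).1 (hq.dvd_of_dvd_pow hd')]
    exact P.ne_bot_of_dvd_card hd (le_bot_iff.1 h1)
  obtain ⟨C, -, hC, hCk, -⟩ := frob_of hDL.symm Kb hKA hidx hK0 hKt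
  refine ⟨N, K, inferInstance, inferInstance, ?_, ⟨B, hBF, hBk⟩, ⟨C, hC, ?_⟩⟩
  · refine lt_of_le_of_ne hNK ?_
    intro h
    apply hKb1
    have h1 := hcardK
    rw [← h] at h1
    have h2 : Nat.card N * 1 = Nat.card N * Nat.card Kb := by rw [mul_one]; exact h1
    exact (Nat.eq_of_mul_eq_mul_left Nat.card_pos h2).symm
  · rw [hCk, hmapK]

end Cfsg.Agent.GKS
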